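import Cfsg.Agent.CF.CentreFactor
import Cfsg.Agent.CF.Sections
import Cfsg.Agent.Modules.Thompson

/-!
`Ω₁Z` and the functors that factor through `J̃(P) = C_P(Z(J_A(P)))`.
-/

set_option autoImplicit false

namespace Cfsg.Agent.CF.FocalOdd

open Cfsg.Agent.Fusion Cfsg.Agent.Modules

/-- `J̃(P) = C_P(Z(J_A(P)))`. -/
abbrev jt {X : Type*} [Group X] (P : Subgroup X) : Subgroup X :=
  P ⊓ Subgroup.centralizer (Cfsg.centerThompsonAOf P : Set X)

theorem jt_map {X Y : Type*} [Group X] [Group Y] {f : X →* Y} (hf : Function.Injective f)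
    (P : Subgroup X) : jt (P.map f) = (jt P).map f := by
  show P.map f ⊓ Subgroup.centralizer (Cfsg.centerThompsonAOf (P.map f) : Set Y) = _
  rw [← map_centerThompsonAOf hf, ← map_inf_centralizer hf]

theorem thompson_le_jt {X : Type*} [Group X] (P : Subgroup X) :
    Cfsg.thompsonSubgroupAOf P ≤ jt P :=
  le_inf (thompsonSubgroupAOf_le P) (Subgroup.le_centralizer_iff.1 inf_le_right)

theorem jt_eq_of_le {X : Type*} [Group X] {P U : Subgroup X} [Finite P] (hUP : U ≤ P)
    (h : jt P ≤ U) : jt U = jt P := by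
  have e : Cfsg.thompsonSubgroupAOf U = Cfsg.thompsonSubgroupAOf P :=
    thompsonSubgroupAOf_eq_of_le hUP ((thompson_le_jt P).trans h)
  have e' : Cfsg.centerThompsonAOf U = Cfsg.centerThompsonAOf P := by
    rw [Cfsg.centerThompsonAOf, Cfsg.centerThompsonAOf, e]
  show U ⊓ Subgroup.centralizer (Cfsg.centerThompsonAOf U : Set X) = _
  rw [e']
  exact le_antisymm (inf_le_inf_right _ hUP) (le_inf h inf_le_right)

theorem inf_centralizer_le_jt {X : Type*} [Group X] (P : Subgroup X) :
    P ⊓ Subgroup.centralizer (P : Set X) ≤ jt P :=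
  inf_le_inf_left _ (Subgroup.centralizer_le (centerThompsonAOf_le P))

theorem Nz_le_Nz_jt {X : Type*} [Group X] (P : Subgroup X) : Nz P ≤ Nz (jt P) := fun g hg => by
  refine mem_Nz.2 ?_
  show (jt P).map (MulAut.conj g).toMonoidHom = jt P
  rw [← jt_map (MulAut.conj g).injective, show P.map (MulAut.conj g).toMonoidHom = P from mem_Nz.1 hg]

universe u

variable {p : ℕ} [Fact p.Prime]

/-- `Ω₁Z` as a functor. -/
def omZFun (p : ℕ) : ∀ (Q : Type u) [Group Q], Subgroup Q := fun Q _ => omZ p (⊤ : Subgroup Q)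

theorem induced_omZFun {X : Type u} [Group X] (P : Subgroup X) :
    Cfsg.inducedFunctor (omZFun p) P = omZ p P := by
  rw [Cfsg.inducedFunctor, omZFun, ← omZ_map P.subtype fun x _ hx => P.subtype_injective
    (by rw [hx, map_one]), ← MonoidHom.range_eq_map, Subgroup.range_subtype]

omit [Fact p.Prime] in
theorem omZ_ne_bot [Fact p.Prime] {X : Type*} [Group X] [Finite X] {P : Subgroup X}
    (hP : IsPGroup p P) (h : P ≠ ⊥) : omZ p P ≠ ⊥ := by
  haveI : Nontrivial P := (Subgroup.nontrivial_iff_ne_bot P).2 h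
  haveI := hP.center_nontrivial
  obtain ⟨z, hz⟩ : ∃ z : Subgroup.center P, orderOf z = p := by
    refine exists_prime_orderOf_dvd_card' p ?_
    rcases (hP.to_subgroup (Subgroup.center P)).card_eq_or_dvd with h1 | h1
    · exact absurd h1 Finite.one_lt_card.ne'
    · exact h1
  intro hb
  have hzp : z ^ p = 1 := by rw [← hz]; exact pow_orderOf_eq_one z
  have hmem : ((z : P) : X) ∈ omZ p P := Subgroup.subset_closure
    ⟨⟨(z : P).2, Subgroup.mem_centralizer_iff.2 fun y hy =>
      congrArg Subtype.val (Subgroup.mem_center_iff.1 z.2 ⟨y, hy⟩)⟩, by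
      simpa using congrArg (fun w : Subgroup.center P => ((w : P) : X)) hzp⟩
  rw [hb, Subgroup.mem_bot] at hmem
  have : z = 1 := Subtype.ext (Subtype.ext hmem)
  rw [this, orderOf_one] at hz
  exact (Fact.out : p.Prime).one_lt.ne hz

theorem omZFun_charP : Cfsg.IsCharPFunctor.{u} p (omZFun p) := by
  refine ⟨fun Q _ _ hQ hne => ?_, fun Q R _ _ _ _ φ => ?_⟩
  · haveI := hne
    exact omZ_ne_bot (hQ.of_equiv Subgroup.topEquiv.symm) top_ne_bot
  · rw [omZFun, omZFun, ← omZ_map φ.toMonoidHom fun x _ hx => φ.injective (hx.trans φ.map_one.symm),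
      Subgroup.map_top_of_surjective _ φ.surjective]

/-- `W ∘ J̃`. -/
def compJt (W : ∀ (Q : Type u) [Group Q], Subgroup Q) : ∀ (Q : Type u) [Group Q], Subgroup Q :=
  fun Q _ => Cfsg.inducedFunctor W (jt (⊤ : Subgroup Q))

theorem induced_compJt {W : ∀ (Q : Type u) [Group Q], Subgroup Q}
    (hW : Cfsg.IsCharPFunctor.{u} p W) {X : Type u} [Group X] [Finite X] {P : Subgroup X}
    (hP : IsPGroup p P) :
    Cfsg.inducedFunctor (compJt W) P = Cfsg.inducedFunctor W (jt P) := by
  show (Cfsg.inducedFunctor W (jt (⊤ : Subgroup P))).map P.subtype = _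
  rw [← inducedFunctor_map_of_injective hW P.subtype P.subtype_injective (hP.to_subgroup _),
    ← jt_map P.subtype_injective, ← MonoidHom.range_eq_map, Subgroup.range_subtype]

theorem compJt_charP {W : ∀ (Q : Type u) [Group Q], Subgroup Q}
    (hW : Cfsg.IsCharPFunctor.{u} p W) : Cfsg.IsCharPFunctor.{u} p (compJt W) := by
  refine ⟨fun Q _ _ hQ hne h => ?_, fun Q R _ _ _ hQ φ => ?_⟩
  · haveI := hne
    refine W_ne_bot (isConjugacyFunctor_induced hW) (hQ.to_subgroup _) (fun hj => ?_) h
    have hc : Subgroup.center Q ≤ jt (⊤ : Subgroup Q) := fun z hz =>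
      inf_centralizer_le_jt ⊤ ⟨trivial, Subgroup.mem_centralizer_iff.2 fun y _ =>
        Subgroup.mem_center_iff.1 hz y⟩
    haveI := hQ.center_nontrivial
    exact (Subgroup.nontrivial_iff_ne_bot _).1 inferInstance (le_bot_iff.1 (hc.trans hj.le))
  · show (Cfsg.inducedFunctor W (jt (⊤ : Subgroup Q))).map φ.toMonoidHom = _
    rw [← inducedFunctor_map_of_injective hW φ.toMonoidHom φ.injective (hQ.to_subgroup _),
      ← jt_map (f := φ.toMonoidHom) φ.injective, Subgroup.map_top_of_surjective _ φ.surjective]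
    rfl

omit [Fact p.Prime] in
theorem characteristic_of_charP {W : ∀ (Q : Type u) [Group Q], Subgroup Q}
    (hW : Cfsg.IsCharPFunctor.{u} p W) {Q : Type u} [Group Q] [Finite Q] (hQ : IsPGroup p Q) :
    (W Q).Characteristic :=
  Subgroup.characteristic_iff_map_eq.2 fun φ => hW.2 Q Q hQ φ

/-- Every non-trivial characteristic subgroup of a `p`-group is the value of some functor. -/
theorem exists_charP_eq {R : Type u} [Group R] [Finite R] (hR : IsPGroup p R) {K : Subgroup R}
    (hK : K.Characteristic) (hK0 : K ≠ ⊥) :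
    ∃ W : ∀ (Q : Type u) [Group Q], Subgroup Q, Cfsg.IsCharPFunctor.{u} p W ∧ W R = K := by
  classical
  refine ⟨fun Q _ => if h : Nonempty (R ≃* Q) then K.map h.some.toMonoidHom else Subgroup.center Q,
    ⟨fun Q _ _ hQ hne => ?_, fun Q Q' _ _ _ hQ φ => ?_⟩, ?_⟩
  · show (if h : Nonempty (R ≃* Q) then _ else _) ≠ ⊥
    split_ifs with h
    · exact fun hb => hK0 ((Subgroup.map_eq_bot_iff_of_injective _ h.some.injective).1 hb)
    · haveI := hne
      exact (Subgroup.nontrivial_iff_ne_bot _).1 hQ.center_nontrivial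
  · show Subgroup.map φ.toMonoidHom (if h : Nonempty (R ≃* Q) then _ else _) =
      if h : Nonempty (R ≃* Q') then _ else _
    by_cases h : Nonempty (R ≃* Q)
    · have h' : Nonempty (R ≃* Q') := ⟨h.some.trans φ⟩
      rw [dif_pos h, dif_pos h', Subgroup.map_map]
      set α : R ≃* R := (h.some.trans φ).trans h'.some.symm with hα
      conv_rhs => rw [← Subgroup.characteristic_iff_map_eq.1 hK α, Subgroup.map_map]
      congr 1
      ext x
      simp [hα]
    · have h' : ¬ Nonempty (R ≃* Q') := fun ⟨e⟩ => h ⟨e.trans φ.symm⟩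
      rw [dif_neg h, dif_neg h']
      ext x
      constructor
      · rintro ⟨z, hz, rfl⟩
        refine Subgroup.mem_center_iff.2 fun y => ?_
        obtain ⟨y', rfl⟩ := φ.surjective y
        show φ y' * φ z = φ z * φ y'
        rw [← map_mul, ← map_mul, Subgroup.mem_center_iff.1 hz y']
      · intro hx
        refine ⟨φ.symm x, Subgroup.mem_center_iff.2 fun y => φ.injective ?_, φ.apply_symm_apply x⟩
        rw [map_mul, map_mul, φ.apply_symm_apply]
        exact Subgroup.mem_center_iff.1 hx (φ y)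
  · show (if h : Nonempty (R ≃* R) then _ else _) = K
    rw [dif_pos ⟨MulEquiv.refl R⟩]
    exact Subgroup.characteristic_iff_map_eq.1 hK _

/-- The family used for the focal subgroup theorem. -/
def family (p : ℕ) : Set (∀ (Q : Type u) [Group Q], Subgroup Q) :=
  insert (omZFun p) {V | ∃ W : ∀ (Q : Type u) [Group Q], Subgroup Q,
    Cfsg.IsCharPFunctor.{u} p W ∧ V = compJt W}

theorem family_charP : ∀ W ∈ family.{u} p, Cfsg.IsCharPFunctor.{u} p W := by
  rintro W (rfl | ⟨W', hW', rfl⟩)
  exacts [omZFun_charP, compJt_charP hW']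

theorem omZFun_mem : omZFun p ∈ family.{u} p := Set.mem_insert _ _

omit [Fact p.Prime] in
theorem compJt_mem {W : ∀ (Q : Type u) [Group Q], Subgroup Q}
    (hW : Cfsg.IsCharPFunctor.{u} p W) : compJt W ∈ family.{u} p :=
  Set.mem_insert_of_mem _ ⟨W, hW, rfl⟩

end Cfsg.Agent.CF.FocalOdd
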